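import Cfsg.Agent.Lib.Unipotent.Basic
import Mathlib.LinearAlgebra.Matrix.SpecialLinearGroup
import Mathlib.LinearAlgebra.Matrix.GeneralLinearGroup.Basic
import Mathlib.LinearAlgebra.Matrix.Determinant.Basic

/-! Unipotent 2 by 2 matrices: normal form. -/

set_option autoImplicit false

namespace CfsgLib.SL2Classes

open Matrix

variable {F : Type*} [Field F]

/-- The matrix with columns `N v` and `v`. -/
def basisMat (N : Matrix (Fin 2) (Fin 2) F) (v : Fin 2 → F) : Matrix (Fin 2) (Fin 2) F :=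
  !![(N *ᵥ v) 0, v 0; (N *ᵥ v) 1, v 1]

theorem basisMat_smul (N : Matrix (Fin 2) (Fin 2) F) (v : Fin 2 → F) (c : F) :
    basisMat N (c • v) = c • basisMat N v := by
  ext i j
  fin_cases i <;> fin_cases j <;> simp [basisMat, Matrix.mulVec_smul]

theorem mul_basisMat {N : Matrix (Fin 2) (Fin 2) F} (h : N * N = 0) (v : Fin 2 → F) :
    (1 + N) * basisMat N v = basisMat N v * !![1, 1; 0, 1] := by
  have h0 : N *ᵥ (N *ᵥ v) = 0 := by rw [Matrix.mulVec_mulVec, h, Matrix.zero_mulVec]
  have h1 := congrFun h0 0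
  have h2 := congrFun h0 1
  simp [Matrix.mulVec, dotProduct, Fin.sum_univ_two] at h1 h2
  ext i j
  fin_cases i <;> fin_cases j <;>
    simp [basisMat, Matrix.mul_apply, Matrix.mulVec, dotProduct, Fin.sum_univ_two, Matrix.one_apply] <;>
    first | (linear_combination h1) | (linear_combination h2) | ring

theorem exists_basisMat {N : Matrix (Fin 2) (Fin 2) F} (h : N * N = 0) (hN : N ≠ 0) :
    ∃ v, (basisMat N v).det ≠ 0 := by
  obtain ⟨v, hv⟩ : ∃ v, N *ᵥ v ≠ 0 := by
    by_contra hall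
    simp only [not_exists, not_not] at hall
    exact hN (Matrix.ext_of_mulVec_single fun i => by rw [hall, Matrix.zero_mulVec])
  refine ⟨v, fun hdet => hv ?_⟩
  have h0 : N *ᵥ (N *ᵥ v) = 0 := by rw [Matrix.mulVec_mulVec, h, Matrix.zero_mulVec]
  simp [basisMat, Matrix.det_fin_two] at hdet
  set a := (N *ᵥ v) 0 with ha
  set b := (N *ᵥ v) 1 with hb
  by_cases ha0 : a = 0
  · by_cases hb0 : b = 0
    · funext i
      fin_cases i
      · exact ha0
      · exact hb0
    · have hvv : v = (v 1 / b) • (N *ᵥ v) := by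
        funext i
        fin_cases i
        · simp [← ha, ha0]
          rw [ha0, zero_mul, zero_sub, neg_eq_zero] at hdet
          exact (mul_eq_zero.mp hdet).resolve_right hb0
        · simp [← hb, hb0]
      rw [hvv, Matrix.mulVec_smul, h0, smul_zero]
  · have hvv : v = (v 0 / a) • (N *ᵥ v) := by
      funext i
      fin_cases i
      · simp [← ha, ha0]
      · simp [← hb]
        field_simp
        linear_combination hdet
    rw [hvv, Matrix.mulVec_smul, h0, smul_zero]

theorem sub_one_sq (p : ℕ) [Fact p.Prime] [CharP F p] {g : GL (Fin 2) F} (hg : orderOf g = p) :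
    ((g : Matrix (Fin 2) (Fin 2) F) - 1) * ((g : Matrix (Fin 2) (Fin 2) F) - 1) = 0 ∧
      (g : Matrix (Fin 2) (Fin 2) F) - 1 ≠ 0 := by
  refine ⟨?_, fun h => ?_⟩
  · have h1 : ((g : Matrix (Fin 2) (Fin 2) F) - 1) ^ (p ^ 1) = 0 :=
      (CfsgLib.Unipotent.coe_sub_one_pow p g 1).mpr (by rw [pow_one, ← hg, pow_orderOf_eq_one])
    rw [← pow_two]
    simpa using CfsgLib.Unipotent.pow_card_eq_zero ⟨_, h1⟩
  · have h1 : g = 1 := Units.ext (sub_eq_zero.mp h)
    rw [h1, orderOf_one] at hg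
    exact (Fact.out : p.Prime).ne_one hg.symm

/-- In `GL₂`, an element of order `p` is conjugate to the standard transvection. -/
theorem exists_gl_normal_form (p : ℕ) [Fact p.Prime] [CharP F p] {g : GL (Fin 2) F}
    (hg : orderOf g = p) : ∃ P : GL (Fin 2) F,
      (g : Matrix (Fin 2) (Fin 2) F) * (P : Matrix (Fin 2) (Fin 2) F) =
        (P : Matrix (Fin 2) (Fin 2) F) * !![1, 1; 0, 1] := by
  obtain ⟨h2, h0⟩ := sub_one_sq p hg
  obtain ⟨v, hv⟩ := exists_basisMat h2 h0
  refine ⟨Matrix.GeneralLinearGroup.mkOfDetNeZero _ hv, ?_⟩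
  have h := mul_basisMat h2 v
  rw [add_sub_cancel] at h
  exact h

/-- In `SL₂` the conjugating matrix has determinant a prescribed square class representative. -/
theorem exists_sl_normal_form (p : ℕ) [Fact p.Prime] [CharP F p]
    {g : Matrix.SpecialLinearGroup (Fin 2) F} (hg : orderOf g = p) : ∃ d : F, d ≠ 0 ∧
      ∀ c : F, c ≠ 0 → ∃ P : Matrix (Fin 2) (Fin 2) F, P.det = c ^ 2 * d ∧
        (g : Matrix (Fin 2) (Fin 2) F) * P = P * !![1, 1; 0, 1] := by
  have hg' : orderOf (Matrix.SpecialLinearGroup.toGL g) = p :=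
    (orderOf_injective _ Matrix.SpecialLinearGroup.toGL_injective g).trans hg
  obtain ⟨h2, h0⟩ := sub_one_sq p hg'
  obtain ⟨v, hv⟩ := exists_basisMat h2 h0
  refine ⟨_, hv, fun c hc => ⟨basisMat ((g : Matrix (Fin 2) (Fin 2) F) - 1) (c • v), ?_, ?_⟩⟩
  · rw [basisMat_smul, Matrix.det_smul, Fintype.card_fin]
    rfl
  · have h := mul_basisMat h2 (c • v)
    rw [add_sub_cancel] at h
    exact h

end CfsgLib.SL2Classes
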